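import Cfsg.Agent.Lib.TCX.RM11d.C0
import Cfsg.Agent.Lib.TCX.Cert

set_option autoImplicit false
set_option maxRecDepth 100000
set_option Elab.async false

namespace Cfsg.Agent.TCX.RM11d

open Cfsg.Agent.CG

/-- The relators used. -/
noncomputable def R : List (List ℕ) := [[3,3],
  [1,0],
  [2,2],
  [0,1],
  [3,2,3,2],
  [4,4],
  [2,0,2,1,1,1],
  [0,0,0,2,1,2],
  [3,4,3,4,3,4],
  [4,2,4,2,4,2],
  [4,0,0,4,0,0,0,2],
  [2,1,1,1,4,1,1,4],
  [3,0,3,1,1,1,3,1,1],
  [0,0,0,0,0,0,0,0],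
  [4,0,0,0,0,4,0,0,0,0],
  [3,0,0,0,0,3,0,0,0,0,3,0,0,0,0],
  [1,1,1,1,4,1,1,1,1,4],
  [0,0,3,0,0,0,3,1,3],
  [1,1,1,1,1,1,1,1]]

noncomputable def invL : List ℕ := [1,0,2,3,4]

/-- How the relators used follow from the given ones. -/
noncomputable def hints : List (ℕ × Bool × List ℕ) := [(14,false,[]),
  (14,false,[]),
  (14,false,[]),
  (14,false,[]),
  (5,false,[]),
  (14,false,[]),
  (4,false,[]),
  (4,true,[]),
  (10,false,[]),
  (11,false,[]),
  (13,false,[]),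
  (13,true,[]),
  (6,false,[]),
  (3,false,[]),
  (12,false,[]),
  (8,false,[]),
  (12,true,[]),
  (6,true,[]),
  (3,true,[])]

theorem l0all : ∀ a, a < 6 → l0f a = 0 :=
  allz_of_orR c0
theorem l0ru : allLt (rusChk R (nat_lit 5) l0R) 6 = true := by decide +kernel
noncomputable def l0W : List (List ℕ) := [[0,0,0,0]]
theorem l0_ok : Mem R [] l0W :=
  mem_of_chk (q := 8) (d := 2) (s2 := 26) (full := 3) (f := l0f) (by decide +kernel) (by decide +kernel) (fun _ => rfl) l0all l0ru (by decide +kernel) (by decide +kernel)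


end Cfsg.Agent.TCX.RM11d
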